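import Mathlib
import Cfsg.Agent.Lib.Helper63.BB.Defs
import Cfsg.Agent.Lib.Helper59.MC.Struct
import Cfsg.Agent.Lib.Helper85.UnifElt
import Cfsg.Agent.S4209

/-!
# S4144 team project "BB" (helper63): package [A]

Order `p ^ (p+2)`: all two-step centralizers coincide, and some `p`-th power is outside `L p`.
-/

set_option autoImplicit false

universe u

namespace Cfsg.Agent.Lib.Helper61.BB

open Cfsg.Agent.Lib.Helper63.MC Cfsg.Agent.Lib.Helper63.BB
open scoped commutatorElement

theorem pkgA_of (hKB : PkgKBasic.{u}) (hAP : PkgAPow.{u}) : PkgA.{u} := by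
  intro X _ _ p _ hcard hcls hPS
  have hp : p.Prime := Fact.out
  have hp2 : 2 ≤ p := hp.two_le
  have hcls' : Group.nilpotencyClass X = p + 2 - 1 := by rw [hcls]; omega
  obtain ⟨hLcard, -⟩ :=
    Cfsg.Agent.Lib.Helper59.MC.pkgStruct X p (p + 2) (by omega) hcard hcls'
  have hKB' := hKB X p (p + 2) (by omega) hcard hcls'
  have hL1 : Nat.card (L X 1) = p ^ p := by
    have h := hLcard 1 le_rfl (by omega)
    have e : p + 2 - 1 - 1 = p := by omega
    rw [h, e]
  have hLp1 : Nat.card (L X (p - 1)) = p ^ 2 := by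
    have h := hLcard (p - 1) (by omega) (by omega)
    have e : p + 2 - 1 - (p - 1) = 2 := by omega
    rw [h, e]
  have hLp : Nat.card (L X p) = p := by
    have h := hLcard p (by omega) (by omega)
    rw [h]
    have h0 : p + 2 - 1 - p = 1 := by omega
    rw [h0, pow_one]
  have hLtop : L X (p + 1) = ⊥ := by
    have h := hLcard (p + 1) (by omega) (by omega)
    have h0 : p + 2 - 1 - (p + 1) = 0 := by omega
    rw [h0, pow_zero] at h
    exact Subgroup.card_eq_one.1 h
  obtain ⟨hL1K1, -, hK1card⟩ := hKB' 1 le_rfl (by omega)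
  have hK1card' : Nat.card (K X 1) = p * Nat.card (L X 1) := by
    have e : p + 2 - 1 = p + 1 := by omega
    rw [hK1card, hL1, e, pow_succ']
  obtain ⟨s1, hs1K, hs1L⟩ : ∃ s1 ∈ K X 1, s1 ∉ L X 1 := by
    by_contra hcon
    push Not at hcon
    have hle : K X 1 ≤ L X 1 := fun x hx => hcon x hx
    have h1 := Subgroup.card_le_of_le hle
    rw [hK1card'] at h1
    have hpos : 0 < Nat.card (L X 1) := Nat.card_pos
    nlinarith
  have hs1 := hAP X p hcard hcls hPS 1 le_rfl (by omega) s1 hs1K hs1L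
  refine ⟨?_, s1, hs1.2⟩
  intro w hw1 hwp
  by_contra hne
  obtain ⟨hL1Kw, -, hKwcard⟩ := hKB' w hw1 (by omega)
  obtain ⟨t, htKw, htK1⟩ : ∃ t ∈ K X w, t ∉ K X 1 := by
    by_contra hcon
    push Not at hcon
    have hle : K X w ≤ K X 1 := fun x hx => hcon x hx
    exact hne (Subgroup.eq_of_le_of_card_ge hle (by rw [hKwcard, hK1card]))
  have htL : t ∉ L X 1 := fun h => htK1 (hL1K1 h)
  have ht := hAP X p hcard hcls hPS w hw1 hwp t htKw htL
  have hcen : ∀ z ∈ L X p, ∀ g : X, g * z = z * g := by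
    intro z hz g
    have h1 : ⁅z, g⁆ ∈ L X (p + 1) := Cfsg.Agent.Lib.Helper85.UnifElt.comm_mem_L hz g
    rw [hLtop, Subgroup.mem_bot] at h1
    exact ((commutatorElement_eq_one_iff_commute.1 h1).eq).symm
  have hLle : L X p ≤ L X (p - 1) :=
    (Subgroup.lowerCentralSeries_antitone (⊤ : Subgroup X)) (by omega : p - 1 ≤ p)
  have hcardpp : Nat.card (L X (p - 1)) = p * Nat.card (L X p) := by rw [hLp1, hLp, sq]
  have key : ∀ m : X, m ^ p ∈ L X (p - 1) → m ^ p ∉ L X p →
      m ∈ Subgroup.centralizer (L X (p - 1) : Set X) := by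
    intro m hm1 hm2
    have h1 := Cfsg.Agent.Lib.Helper85.UnifElt.le_zpowers_sup hLle hcardpp hm1 hm2
    have h2 : Subgroup.zpowers (m ^ p) ⊔ L X p ≤ Subgroup.centralizer ({m} : Set X) := by
      apply sup_le
      · rw [Subgroup.zpowers_le, Subgroup.mem_centralizer_singleton_iff]
        exact ((Commute.refl m).pow_left p).eq
      · intro z hz
        rw [Subgroup.mem_centralizer_singleton_iff]
        exact (hcen z hz m).symm
    rw [Subgroup.mem_centralizer_iff]
    intro a ha
    have h3 := h2 (h1 ha)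
    rw [Subgroup.mem_centralizer_singleton_iff] at h3
    exact h3
  have htC : t ∈ Subgroup.centralizer (L X (p - 1) : Set X) := key t ht.1 ht.2
  have hs1C : s1 ∈ Subgroup.centralizer (L X (p - 1) : Set X) := key s1 hs1.1 hs1.2
  have hL1C : L X 1 ≤ Subgroup.centralizer (L X (p - 1) : Set X) := by
    intro x hx
    rw [Subgroup.mem_centralizer_iff]
    intro a ha
    have h1 : ⁅a, x⁆ ∈ L X (p - 1 + 1 + 1) :=
      Cfsg.Agent.S4209.lcs_comm_top (p - 1) 1 (Subgroup.commutator_mem_commutator ha hx)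
    have h2 : p - 1 + 1 + 1 = p + 1 := by omega
    rw [h2, hLtop, Subgroup.mem_bot] at h1
    exact (commutatorElement_eq_one_iff_commute.1 h1).eq
  have hK1C : K X 1 ≤ Subgroup.centralizer (L X (p - 1) : Set X) := by
    refine (Cfsg.Agent.Lib.Helper85.UnifElt.le_zpowers_sup hL1K1 hK1card' hs1K hs1L).trans ?_
    exact sup_le ((Subgroup.zpowers_le).2 hs1C) hL1C
  have hCtop : Subgroup.centralizer (L X (p - 1) : Set X) = ⊤ := by
    obtain ⟨k, hk, hCk⟩ := (Nat.dvd_prime_pow hp).1
      (hcard ▸ Subgroup.card_subgroup_dvd_card (Subgroup.centralizer (L X (p - 1) : Set X)))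
    have h1 : p ^ (p + 2 - 1) ∣ p ^ k := by
      rw [← hK1card, ← hCk]; exact Subgroup.card_dvd_of_le hK1C
    have h2 : p + 2 - 1 ≤ k := (Nat.pow_dvd_pow_iff_le_right hp.one_lt).1 h1
    have h3 : k ≠ p + 2 - 1 := by
      intro h
      have h4 : K X 1 = Subgroup.centralizer (L X (p - 1) : Set X) :=
        Subgroup.eq_of_le_of_card_ge hK1C (by rw [hCk, h, hK1card])
      exact htK1 (h4 ▸ htC)
    have h4 : k = p + 2 := by omega
    apply Subgroup.eq_top_of_card_eq
    rw [hCk, h4, hcard]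
  have hLpbot : L X p = ⊥ := by
    have h1 : L X p = ⁅L X (p - 1), (⊤ : Subgroup X)⁆ := by
      have h0 : p = (p - 1) + 1 := by omega
      conv_lhs => rw [h0]
      rfl
    rw [h1, eq_bot_iff, Subgroup.commutator_le]
    intro a ha g _
    rw [Subgroup.mem_bot, commutatorElement_eq_one_iff_commute]
    have hg : g ∈ Subgroup.centralizer (L X (p - 1) : Set X) := by
      rw [hCtop]; exact Subgroup.mem_top g
    rw [Subgroup.mem_centralizer_iff] at hg
    exact hg a ha
  rw [hLpbot] at hLp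
  simp at hLp
  omega

end Cfsg.Agent.Lib.Helper61.BB
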